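import Cfsg.Agent.Lib.Thompson.RankTwo
import Mathlib.GroupTheory.QuotientGroup.Basic

/-!
Quotients of groups with small `Ω₁` and Huppert's metacyclicity criterion; automorphisms of rank two groups.
-/

set_option autoImplicit false

namespace Cfsg.Agent.Lib.Thompson

open Subgroup
open scoped commutatorElement

universe u

theorem omega_equiv_card {p : ℕ} {A B : Type*} [Group A] [Group B] (e : A ≃* B) :
    Nat.card ↥(Cfsg.omegaOne p (⊤ : Subgroup A)) = Nat.card ↥(Cfsg.omegaOne p (⊤ : Subgroup B)) := by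
  have h : (Cfsg.omegaOne p (⊤ : Subgroup A)).map e.toMonoidHom = Cfsg.omegaOne p (⊤ : Subgroup B) := by
    rw [omegaOne, MonoidHom.map_closure, omegaOne]
    congr 1
    ext y
    constructor
    · rintro ⟨x, ⟨-, hx⟩, rfl⟩
      exact ⟨mem_top _, by rw [← map_pow, hx, map_one]⟩
    · rintro ⟨-, hy⟩
      exact ⟨e.symm y, ⟨mem_top _, by rw [← map_pow, hy, map_one]⟩, by simp⟩
  rw [← h]
  exact (card_map_of_injective e.injective).symm

/-- S0637. -/
theorem omega_quotient_le {R : Type u} [Group R] [Finite R] {p : ℕ} [hp : Fact p.Prime] (h3p : 3 < p)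
    (hR : IsPGroup p R) (hO : Nat.card ↥(Cfsg.omegaOne p (⊤ : Subgroup R)) ≤ p ^ 2) (T : Subgroup R)
    [T.Normal] : Nat.card ↥(Cfsg.omegaOne p (⊤ : Subgroup (R ⧸ T))) ≤ p ^ 2 := by
  suffices key : ∀ (n : ℕ) (R : Type u) [Group R] [Finite R], Nat.card R = n → IsPGroup p R →
      Nat.card ↥(Cfsg.omegaOne p (⊤ : Subgroup R)) ≤ p ^ 2 → ∀ (T : Subgroup R) [T.Normal],
      Nat.card ↥(Cfsg.omegaOne p (⊤ : Subgroup (R ⧸ T))) ≤ p ^ 2 from key _ R rfl hR hO T
  intro n
  induction n using Nat.strong_induction_on with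
  | _ n ih =>
  intro R _ _ hn hR hO T hT
  by_cases hTb : T = ⊥
  · subst hTb
    rwa [omega_equiv_card (QuotientGroup.quotientBot (G := R))]
  obtain ⟨z, hzT, hzc, hzo⟩ := exists_central_order_p hR hTb
  have hzn : (zpowers z).Normal := normal_of_le_center (zpowers_le.mpr hzc)
  have hcard : Nat.card (zpowers z) = p := by rw [Nat.card_zpowers, hzo]
  have hlt : Nat.card (R ⧸ zpowers z) < n := by
    rw [← hn, ← (zpowers z).card_mul_index, index_eq_card, hcard]
    exact lt_mul_of_one_lt_left Nat.card_pos hp.out.one_lt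
  have h := ih _ hlt (R ⧸ zpowers z) rfl (hR.to_quotient _)
    (omega_quotient_central h3p hR hO _ (zpowers_le.mpr hzc) hcard)
    (T.map (QuotientGroup.mk' (zpowers z)))
  rwa [omega_equiv_card (QuotientGroup.quotientQuotientEquivQuotient (zpowers z) T
    (zpowers_le.mpr hzT))] at h

/-- S0639: Huppert. -/
theorem isMetacyclic_of_omega_le {R : Type u} [Group R] [Finite R] {p : ℕ} [hp : Fact p.Prime]
    (h3p : 3 < p) (hR : IsPGroup p R) (hO : Nat.card ↥(Cfsg.omegaOne p (⊤ : Subgroup R)) ≤ p ^ 2) :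
    Cfsg.IsMetacyclic R := by
  suffices key : ∀ (n : ℕ) (R : Type u) [Group R] [Finite R], Nat.card R = n → IsPGroup p R →
      Nat.card ↥(Cfsg.omegaOne p (⊤ : Subgroup R)) ≤ p ^ 2 → Cfsg.IsMetacyclic R from key _ R rfl hR hO
  intro n
  induction n using Nat.strong_induction_on with
  | _ n ih =>
  intro R _ _ hn hR hO
  have hp2 : p ≠ 2 := by omega
  have hpp : p.Prime := hp.out
  -- the quotient by the `p`-th powers
  set U := closure {y : R | ∃ x : R, y = x ^ p} with hU
  have hUn : U.Normal := ⟨fun y hy g => by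
    have hle : U ≤ U.comap (MulAut.conj g).toMonoidHom := by
      refine (closure_le _).mpr ?_
      rintro _ ⟨x, rfl⟩
      exact subset_closure ⟨g * x * g⁻¹, (conj_pow).symm⟩
    exact hle hy⟩
  have hV : Nat.card (R ⧸ U) ≤ p ^ 2 := by
    refine le_trans (le_of_eq ?_) (omega_quotient_le h3p hR hO U)
    rw [show Cfsg.omegaOne p (⊤ : Subgroup (R ⧸ U)) = ⊤ from eq_top_iff.mpr fun v _ => ?_, card_top]
    induction v using QuotientGroup.induction_on with
    | H x =>
      refine subset_closure ⟨mem_top _, ?_⟩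
      rw [← QuotientGroup.mk_pow, QuotientGroup.eq_one_iff]
      exact subset_closure ⟨x, rfl⟩
  have hUΦ : U ≤ frattini R := (closure_le _).mpr (by
    rintro _ ⟨x, rfl⟩; exact PGroupFrattini.pow_mem_frattini hR x)
  have hVexp : ∀ v : R ⧸ U, v ^ p = 1 := fun v => by
    induction v using QuotientGroup.induction_on with
    | H x => rw [← QuotientGroup.mk_pow, QuotientGroup.eq_one_iff]; exact subset_closure ⟨x, rfl⟩
  have hVab : ∀ a b : R ⧸ U, a * b = b * a := by
    obtain ⟨i, hi⟩ := IsPGroup.iff_card.mp (hR.to_quotient U)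
    have h2 : i ≤ 2 := (Nat.pow_le_pow_iff_right hpp.one_lt).mp (hi ▸ hV)
    intro x y
    interval_cases i
    · haveI : Subsingleton (R ⧸ U) := (Nat.card_eq_one_iff_unique.mp (by simpa using hi)).1
      exact Subsingleton.elim _ _
    · haveI := isCyclic_of_prime_card (p := p) (by simpa using hi : Nat.card (R ⧸ U) = p)
      exact (IsCyclic.commGroup (α := R ⧸ U)).mul_comm x y
    · exact (IsPGroup.isMulCommutative_of_card_eq_prime_sq hi).is_comm.comm x y
  have hDU : commutator R ≤ U := by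
    rw [_root_.commutator_def, commutator_le]
    intro a _ b _
    rw [← QuotientGroup.eq_one_iff, ← QuotientGroup.mk'_apply, map_commutatorElement,
      commutatorElement_eq_one_iff_mul_comm]
    exact hVab _ _
  by_cases hsmall : commutator R ≤ center R ∧ Nat.card (commutator R) ≤ p
  · obtain ⟨hDc, hDp⟩ := hsmall
    have h2 : ⁅commutator R, (⊤ : Subgroup R)⁆ = ⊥ := by
      rw [commutator_eq_bot_iff_le_centralizer, coe_top, centralizer_univ]; exact hDc
    have hc := commute_commutator_of_class_two h2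
    have hD1 : ∀ d ∈ commutator R, d ^ p = 1 := by
      intro d hd
      rcases (hR.to_subgroup (commutator R)).card_eq_or_dvd with h | h
      · rw [card_eq_one.mp h, mem_bot] at hd
        rw [hd, one_pow]
      · have he := pow_card_eq_one' (x := (⟨d, hd⟩ : commutator R))
        rw [le_antisymm hDp (Nat.le_of_dvd Nat.card_pos h)] at he
        simpa using congrArg Subtype.val he
    have hmul : ∀ x y : R, (x * y) ^ p = x ^ p * y ^ p := fun x y => by
      rw [mul_pow_class_two (mul_comm_eq x y) (hc _ _ x) (hc _ _ y),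
        pow_choose_two_eq_one hp2 (hD1 _ (commutator_mem_commutator (mem_top _) (mem_top _))), mul_one]
    let f : R →* R := MonoidHom.mk' (fun x => x ^ p) hmul
    have hUf : ∀ w ∈ U, ∃ v : R, v ^ p = w := by
      intro w hw
      have : U ≤ f.range := (closure_le _).mpr (by rintro _ ⟨x, rfl⟩; exact ⟨x, rfl⟩)
      exact this hw
    have hDcyc : IsCyclic (commutator R) := by
      rcases (hR.to_subgroup (commutator R)).card_eq_or_dvd with h | h
      · rw [card_eq_one.mp h]; infer_instance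
      · exact isCyclic_of_prime_card (le_antisymm hDp (Nat.le_of_dvd Nat.card_pos h))
    obtain ⟨C, hDC, hC⟩ := Finite.exists_le_maximal
      (p := fun C : Subgroup R => IsCyclic C ∧ commutator R ≤ C) (a := commutator R) ⟨hDcyc, le_rfl⟩
    have hCn : C.Normal := by
      refine ⟨fun c hcC g => ?_⟩
      have h := mul_mem (hDC (commutator_mem_commutator (mem_top g) (mem_top c))) hcC
      simpa [commutatorElement_def] using h
    refine ⟨C, hCn, hC.prop.1, ?_⟩
    obtain ⟨⟨w, hwC⟩, hw⟩ := hC.prop.1.exists_generator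
    have hCw : C = zpowers w := le_antisymm (fun c hc => by
      obtain ⟨i, hi⟩ := hw ⟨c, hc⟩
      exact ⟨i, by simpa using congrArg Subtype.val hi⟩) (zpowers_le.mpr hwC)
    by_cases hw1 : w = 1
    · have : Subsingleton R := by
        refine ⟨fun a b => ?_⟩
        have hall : ∀ v : R, v = 1 := fun v => by
          have hle : C ≤ zpowers v := by rw [hCw, hw1, zpowers_one_eq_bot]; exact bot_le
          have h := hC.le_of_ge ⟨inferInstance, hDC.trans hle⟩ hle (mem_zpowers v)
          rw [hCw, hw1, zpowers_one_eq_bot, mem_bot] at h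
          exact h
        rw [hall a, hall b]
      have : Subsingleton (R ⧸ C) := Quotient.instSubsingletonQuotient _
      infer_instance
    have hwU : w ∉ U := by
      intro hwU
      obtain ⟨v, rfl⟩ := hUf w hwU
      have hle : C ≤ zpowers v := by rw [hCw]; exact zpowers_le.mpr (pow_mem (mem_zpowers v) p)
      have h := hC.le_of_ge ⟨inferInstance, hDC.trans hle⟩ hle (mem_zpowers v)
      rw [hCw] at h
      obtain ⟨i, hi⟩ := mem_zpowers_iff.mp h
      have hd1 : (orderOf v : ℤ) ∣ (p : ℤ) * i - 1 := by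
        rw [orderOf_dvd_iff_zpow_eq_one, zpow_sub, zpow_mul, zpow_natCast, hi, zpow_one, mul_inv_cancel]
      obtain ⟨m, hm⟩ := IsPGroup.iff_orderOf.mp hR v
      cases m with
      | zero => exact hw1 (by rw [(orderOf_eq_one_iff (x := v)).mp (by simpa using hm), one_pow])
      | succ m =>
        have h2 : (p : ℤ) ∣ (p : ℤ) * i - 1 := dvd_trans ⟨(p : ℤ) ^ m, by rw [hm, pow_succ']; push_cast; ring⟩ hd1
        have h3 : (p : ℤ) ∣ 1 := by simpa using (dvd_mul_right (p : ℤ) i).sub h2
        have h4 := Int.eq_one_of_dvd_one (Int.natCast_nonneg p) h3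
        exact hpp.ne_one (by exact_mod_cast h4)
    -- generate `V` over the image of `w`
    let π := QuotientGroup.mk' U
    set W' := zpowers (π w) with hW'
    have hπw : π w ≠ 1 := fun h => hwU ((QuotientGroup.eq_one_iff w).mp h)
    have hW'card : Nat.card W' = p := by rw [hW', Nat.card_zpowers, orderOf_eq_prime (hVexp _) hπw]
    obtain ⟨v, hv⟩ : ∃ v : R, W' ⊔ zpowers (π v) = ⊤ := by
      by_cases hWt : W' = ⊤
      · exact ⟨1, by rw [hWt, top_sup_eq]⟩
      obtain ⟨q, -, hq⟩ := SetLike.exists_of_lt (lt_of_le_of_ne le_top hWt)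
      obtain ⟨v, rfl⟩ := QuotientGroup.mk'_surjective U q
      refine ⟨v, eq_of_le_of_card_ge le_top ?_⟩
      have hlt : W' < W' ⊔ zpowers (π v) :=
        lt_of_le_of_ne le_sup_left fun e => hq (e ▸ mem_sup_right (mem_zpowers (π v)))
      have := card_mul_p_le (hR.to_quotient U) hlt
      rw [hW'card, ← pow_two] at this
      rw [card_top]
      exact hV.trans this
    have hgen : zpowers w ⊔ zpowers v = ⊤ := by
      refine frattini_nongenerating (top_le_iff.mp fun x _ => ?_)
      have h := hv.ge (mem_top (π x))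
      rw [hW', ← MonoidHom.map_zpowers, ← MonoidHom.map_zpowers, ← Subgroup.map_sup] at h
      obtain ⟨y, hy, hyx⟩ := h
      have : y⁻¹ * x ∈ U := QuotientGroup.eq.mp hyx
      have h' := mul_mem (mem_sup_left (T := frattini R) hy) (mem_sup_right (hUΦ this))
      simpa using h'
    refine isCyclic_iff_exists_zpowers_eq_top.mpr ⟨QuotientGroup.mk' C v, ?_⟩
    rw [← MonoidHom.map_zpowers, eq_top_iff, ← map_top_of_surjective _ (QuotientGroup.mk'_surjective C),
      ← hgen, Subgroup.map_sup, sup_le_iff]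
    refine ⟨le_of_eq_of_le ((Subgroup.map_eq_bot_iff _).mpr ?_) bot_le, le_rfl⟩
    rw [QuotientGroup.ker_mk', hCw]
  -- pass to the quotient by a central subgroup of order `p` inside the derived subgroup
  have hne : commutator R ≠ ⊥ := fun h => hsmall ⟨h ▸ bot_le, by rw [h, card_bot]; exact hpp.one_lt.le⟩
  obtain ⟨z, hzD, hzc, hzo⟩ := exists_central_order_p hR hne
  have hzn : (zpowers z).Normal := normal_of_le_center (zpowers_le.mpr hzc)
  have hcard : Nat.card (zpowers z) = p := by rw [Nat.card_zpowers, hzo]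
  have hlt : Nat.card (R ⧸ zpowers z) < n := by
    rw [← hn, ← (zpowers z).card_mul_index, index_eq_card, hcard]
    exact lt_mul_of_one_lt_left Nat.card_pos hpp.one_lt
  obtain ⟨A', hA'n, hA'c, hA'q⟩ := ih _ hlt (R ⧸ zpowers z) rfl (hR.to_quotient _)
    (omega_quotient_central h3p hR hO _ (zpowers_le.mpr hzc) hcard)
  let π := QuotientGroup.mk' (zpowers z)
  have hπs : Function.Surjective π := QuotientGroup.mk'_surjective _
  set A := A'.comap π with hA
  have hAn : A.Normal := hA'n.comap π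
  have hquot : IsCyclic (R ⧸ A) := by
    haveI := hA'q
    let φ : R ⧸ A →* (R ⧸ zpowers z) ⧸ A' := QuotientGroup.map A A' π le_rfl
    refine isCyclic_of_injective φ ((injective_iff_map_eq_one φ).mpr fun q hq => ?_)
    induction q using QuotientGroup.induction_on with
    | H x =>
      exact (QuotientGroup.eq_one_iff x).mpr ((QuotientGroup.eq_one_iff (π x)).mp hq)
  obtain ⟨⟨g', hg'A⟩, hg'⟩ := hA'c.exists_generator
  obtain ⟨a, rfl⟩ := hπs g'
  have hzA : z ∈ A := by
    rw [hA, mem_comap, show π z = 1 from (QuotientGroup.eq_one_iff z).mpr (mem_zpowers z)]; exact one_mem _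
  have hAeq : ∀ x ∈ A, ∃ i j : ℤ, x = a ^ i * z ^ j := by
    intro x hx
    obtain ⟨i, hi⟩ := hg' ⟨π x, hx⟩
    have hi' : π (a ^ i) = π x := by rw [map_zpow]; simpa using congrArg Subtype.val hi
    obtain ⟨j, hj⟩ := mem_zpowers_iff.mp (QuotientGroup.eq.mp hi')
    exact ⟨i, j, by rw [hj, mul_inv_cancel_left]⟩
  have haA : a ∈ A := hg'A
  by_cases hza : z ∈ zpowers a
  · refine ⟨A, hAn, ?_, hquot⟩
    have hAa : A = zpowers a := le_antisymm (fun x hx => by
      obtain ⟨i, j, rfl⟩ := hAeq x hx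
      exact mul_mem (zpow_mem (mem_zpowers a) i) (zpow_mem hza j)) (zpowers_le.mpr haA)
    rw [hAa]; infer_instance
  exfalso
  obtain ⟨q, hq⟩ := hquot.exists_generator
  obtain ⟨b, rfl⟩ := QuotientGroup.mk'_surjective A q
  have hcz : ∀ w : R, Commute z w := fun w => (mem_center_iff.mp hzc w).symm
  have hAcomm : ∀ x ∈ A, ∀ y ∈ A, Commute x y := by
    intro x hx y hy
    obtain ⟨i, j, rfl⟩ := hAeq x hx
    obtain ⟨k, l, rfl⟩ := hAeq y hy
    have hz' : ∀ (m : ℤ) (w : R), Commute (z ^ m) w := fun m w => (hcz w).zpow_left m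
    exact (((Commute.refl a).zpow_zpow i k).mul_right ((hz' l _).symm)).mul_left (hz' j _)
  -- commutation with `b`
  let φ : A →* A :=
    { toFun := fun u => ⟨b * u * b⁻¹ * (u : R)⁻¹, mul_mem (hAn.conj_mem u u.2 b) (inv_mem u.2)⟩
      map_one' := Subtype.ext (by simp)
      map_mul' := fun u v => Subtype.ext (by
        show b * (u * v : R) * b⁻¹ * ((u : R) * v)⁻¹ = (b * u * b⁻¹ * (u : R)⁻¹) * (b * v * b⁻¹ * (v : R)⁻¹)
        have h1 : Commute (u : R)⁻¹ (b * v * b⁻¹ * (v : R)⁻¹) :=
          hAcomm _ (inv_mem u.2) _ (mul_mem (hAn.conj_mem v v.2 b) (inv_mem v.2))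
        calc b * ((u : R) * v) * b⁻¹ * ((u : R) * v)⁻¹
            = b * u * b⁻¹ * ((b * v * b⁻¹ * (v : R)⁻¹) * (u : R)⁻¹) := by group
          _ = _ := by rw [← h1.eq]; group) }
  set c := φ ⟨a, haA⟩ with hc
  have hφ : ∀ u : A, ((φ u : A) : R) ∈ zpowers (c : R) := by
    intro u
    obtain ⟨i, j, hu⟩ := hAeq u u.2
    have hz1 : φ ⟨z, hzA⟩ = 1 := Subtype.ext (by
      show b * z * b⁻¹ * z⁻¹ = 1
      rw [← (hcz b).eq]; group)
    have hu' : u = (⟨a, haA⟩ : A) ^ i * (⟨z, hzA⟩ : A) ^ j := Subtype.ext (by simpa using hu)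
    rw [hu', map_mul, map_zpow, map_zpow, hz1, one_zpow, mul_one, ← hc]
    exact ⟨i, by simp⟩
  set K := zpowers (c : R) with hK
  have hgen : ∀ x : R, ∃ u ∈ A, ∃ i : ℤ, x = b ^ i * u := by
    intro x
    obtain ⟨i, hi⟩ := hq (x : R ⧸ A)
    have hi' : ((b ^ i : R) : R ⧸ A) = (x : R ⧸ A) := by rw [QuotientGroup.mk_zpow]; exact hi
    exact ⟨_, QuotientGroup.eq.mp hi', i, by group⟩
  have hKn : K.Normal := by
    have hle : closure ({b} ∪ (A : Set R)) = ⊤ := eq_top_iff.mpr fun x _ => by
      obtain ⟨u, hu, i, rfl⟩ := hgen x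
      exact mul_mem (zpow_mem (Subgroup.subset_closure (by simp)) i) (Subgroup.subset_closure (by simp [hu]))
    rw [← normalizer_eq_top_iff, eq_top_iff, ← hle, closure_le]
    rintro x (rfl | hx)
    · refine Subgroup.mem_normalizer_iff_map_conj_eq.mpr ?_
      refine eq_of_le_of_card_ge ?_ (by rw [card_map_of_injective (MulAut.conj x).injective])
      rw [hK, MonoidHom.map_zpowers, zpowers_le]
      have h := hφ ⟨x * a * x⁻¹, hAn.conj_mem a haA x⟩
      show x * (c : R) * x⁻¹ ∈ zpowers (c : R)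
      have e : x * (c : R) * x⁻¹ = x * (x * a * x⁻¹) * x⁻¹ * (x * a * x⁻¹)⁻¹ := by
        show x * (x * a * x⁻¹ * a⁻¹) * x⁻¹ = _
        group
      rw [e]; exact h
    · refine centralizer_le_normalizer _ (mem_centralizer_iff.mpr fun k hk => ?_)
      have hkA : k ∈ A := (zpowers_le.mpr c.2) hk
      exact (hAcomm k hkA x hx).eq
  have hDK : commutator R ≤ K := by
    have hcom : ∀ u ∈ A, Commute (QuotientGroup.mk' K b) (QuotientGroup.mk' K u) := by
      intro u hu
      show QuotientGroup.mk' K b * QuotientGroup.mk' K u = QuotientGroup.mk' K u * QuotientGroup.mk' K b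
      rw [← commutatorElement_eq_one_iff_mul_comm, ← map_commutatorElement,
        QuotientGroup.mk'_apply, QuotientGroup.eq_one_iff]
      exact hφ ⟨u, hu⟩
    rw [_root_.commutator_def, commutator_le]
    intro x _ y _
    rw [← QuotientGroup.eq_one_iff, ← QuotientGroup.mk'_apply, map_commutatorElement,
      commutatorElement_eq_one_iff_mul_comm]
    obtain ⟨u, hu, i, rfl⟩ := hgen x
    obtain ⟨v, hv, k, rfl⟩ := hgen y
    simp only [map_mul, map_zpow]
    have huv : Commute (QuotientGroup.mk' K u) (QuotientGroup.mk' K v) := (hAcomm u hu v hv).map _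
    exact ((((Commute.refl _).zpow_zpow i k).mul_right ((hcom v hv).zpow_left i)).mul_left
      ((((hcom u hu).zpow_left k).symm).mul_right huv)).eq
  obtain ⟨i, hi⟩ := mem_zpowers_iff.mp (hDK hzD)
  obtain ⟨s, t, hst⟩ := hAeq (c : R) c.2
  obtain ⟨m, hm⟩ := IsPGroup.iff_orderOf.mp hR (c : R)
  rcases Nat.lt_or_ge m 2 with hm2 | hm2
  · refine hsmall ?_
    have hle : Nat.card K ≤ p := by
      rw [hK, Nat.card_zpowers, hm]
      calc p ^ m ≤ p ^ 1 := Nat.pow_le_pow_right hpp.pos (by omega)
        _ = p := pow_one p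
    have heq : zpowers z = K := eq_of_le_of_card_ge (zpowers_le.mpr (hDK hzD)) (by rw [hcard]; exact hle)
    exact ⟨hDK.trans (heq ▸ zpowers_le.mpr hzc), (card_le_of_le hDK).trans hle⟩
  · refine hza ?_
    have hzp : z ^ (p : ℤ) = 1 := by rw [zpow_natCast, ← hzo, pow_orderOf_eq_one]
    have hd : ((p : ℤ) ^ m) ∣ i * p := by
      have : (orderOf (c : R) : ℤ) ∣ i * p := by
        rw [orderOf_dvd_iff_zpow_eq_one, zpow_mul, hi, hzp]
      rwa [hm, Nat.cast_pow] at this
    have hdi : (p : ℤ) ∣ i := by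
      have h1 : ((p : ℤ) ^ (m - 1)) * p ∣ i * p := by
        rwa [← pow_succ, Nat.sub_add_cancel (by omega : 1 ≤ m)]
      exact dvd_trans (dvd_pow_self (p : ℤ) (by omega)) (Int.dvd_of_mul_dvd_mul_right
        (Int.natCast_ne_zero.mpr hpp.ne_zero) h1)
    obtain ⟨j, rfl⟩ := hdi
    have hzc' : Commute (a ^ s) (z ^ t) := ((hcz _).zpow_left t).symm
    refine ⟨s * ((p : ℤ) * j), ?_⟩
    show a ^ (s * ((p : ℤ) * j)) = z
    rw [zpow_mul]
    refine Eq.trans ?_ hi
    rw [hst, hzc'.mul_zpow, ← zpow_mul z, show t * ((p : ℤ) * j) = (p : ℤ) * (t * j) by ring,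
      zpow_mul z, hzp, one_zpow, mul_one]

/-- S0640. -/
theorem aut_prime_dvd_rank_two {R : Type*} [Group R] [Finite R] {p : ℕ} [hp : Fact p.Prime]
    (hp2 : p ≠ 2) (hR : IsPGroup p R) (hr : Cfsg.PRankLE p 2 R) {q : ℕ} (hq : q.Prime) (hqp : q ≠ p)
    (hdvd : q ∣ Nat.card (MulAut R)) : q ∣ p ^ 2 - 1 := by
  haveI : Fact q.Prime := ⟨hq⟩
  obtain ⟨a, ha⟩ := exists_prime_orderOf_dvd_card' (G := MulAut R) q hdvd
  have hcop : (orderOf a).Coprime p := by rw [ha]; exact (Nat.coprime_primes hq hp.out).mpr hqp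
  obtain ⟨H, hH, hH1, hH2, hH3⟩ := exists_critical hR
  haveI := hH
  have hcl : ⁅commutator H, (⊤ : Subgroup H)⁆ = ⊥ := by
    rw [commutator_eq_bot_iff_le_centralizer, coe_top, centralizer_univ, _root_.commutator_def, commutator_le]
    intro x _ y _
    have h1 : ((⁅x, y⁆ : H) : R) ∈ H ⊓ centralizer (H : Set R) := by
      refine hH2 ?_
      exact commutator_mem_commutator x.2 (mem_top (y : R))
    exact mem_center_iff.mpr fun z => Subtype.ext (mem_centralizer_iff.mp h1.2 (z : R) z.2)
  let W : Subgroup H :=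
    { carrier := {x | x ^ p = 1}
      one_mem' := one_pow p
      mul_mem' := fun hx hy => pow_mul_eq_one_class_two hp2 hcl hx hy
      inv_mem' := fun {x} hx => by
        show x⁻¹ ^ p = 1
        rw [inv_pow, show x ^ p = 1 from hx, inv_one] }
  haveI hWc : W.Characteristic := characteristic_iff_le_comap.mpr fun φ x hx => by
    show φ.toMonoidHom x ^ p = 1
    rw [← map_pow, show x ^ p = 1 from hx, map_one]
  have hWexp : ∀ w : W, w ^ p = 1 := fun w => Subtype.ext ((SubmonoidClass.coe_pow w p).trans w.2)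
  let b : MulAut W := Hall.charRestrict W (Hall.charRestrict H a)
  have hb : b ≠ 1 := by
    intro hb
    have hHb : Hall.charRestrict H a = 1 := by
      refine Cfsg.Agent.S0120.result hp2 (hR.to_subgroup H) _ (hcop.coprime_dvd_left (orderOf_map_dvd _ a))
        fun x hx => ?_
      exact congrArg Subtype.val (DFunLike.congr_fun hb (⟨x, hx⟩ : W))
    have := Cfsg.Agent.S0121.result hR H hH hH1 hH2 hH3 a hcop fun x hx =>
      congrArg Subtype.val (DFunLike.congr_fun hHb (⟨x, hx⟩ : H))
    rw [this, orderOf_one] at ha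
    exact hq.ne_one ha.symm
  have hbq : b ^ q = 1 := by
    show (Hall.charRestrict W (Hall.charRestrict H a)) ^ q = 1
    rw [← map_pow, ← map_pow, ← ha, pow_orderOf_eq_one, map_one, map_one]
  -- counting fixed points on a small elementary abelian section
  have count : ∀ (V : Type _) [Group V] [Finite V], IsPGroup p V → Nat.card V ≤ p ^ 2 →
      ∀ c : MulAut V, c ^ q = 1 → c ≠ 1 → q ∣ p ^ 2 - 1 := by
    intro V _ _ hV hcard c hcq hc1
    have hord : orderOf c = q := orderOf_eq_prime hcq hc1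
    have hQ : IsPGroup q (zpowers c) := IsPGroup.of_card (n := 1) (by rw [Nat.card_zpowers, hord, pow_one])
    have hmod := hQ.card_modEq_card_fixedPoints V
    let F : Subgroup V :=
      { carrier := {v | c v = v}
        one_mem' := map_one c
        mul_mem' := fun {x y} hx hy => by
          show c (x * y) = x * y
          rw [map_mul, show c x = x from hx, show c y = y from hy]
        inv_mem' := fun {x} hx => by
          show c x⁻¹ = x⁻¹
          rw [map_inv, show c x = x from hx] }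
    have hfix : MulAction.fixedPoints (zpowers c) V = (F : Set V) := by
      ext v
      constructor
      · intro h
        exact h ⟨c, mem_zpowers c⟩
      · rintro (h : c v = v) ⟨g, hg⟩
        show g v = v
        have hst : c ∈ MulAction.stabilizer (MulAut V) v := h
        exact (zpowers_le.mpr hst) hg
    have hne : F ≠ ⊤ := fun h => hc1 (MulEquiv.ext fun v => (h.ge (mem_top v) : c v = v))
    rw [hfix] at hmod
    obtain ⟨i, hi⟩ := IsPGroup.iff_card.mp hV
    obtain ⟨j, hj⟩ := IsPGroup.iff_card.mp (hV.to_subgroup F)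
    have hji : j < i := (Nat.pow_lt_pow_iff_right hp.out.one_lt).mp
      (hi ▸ hj ▸ Coprime.card_lt_of_ne_top hne)
    have hi2 : i ≤ 2 := (Nat.pow_le_pow_iff_right hp.out.one_lt).mp (hi ▸ hcard)
    rw [hi, show Nat.card (F : Set V) = p ^ j from hj] at hmod
    have hdiv : q ∣ p ^ i - p ^ j :=
      (Nat.modEq_iff_dvd' (Nat.pow_le_pow_right hp.out.pos hji.le)).mp hmod.symm
    rw [show p ^ i - p ^ j = p ^ j * (p ^ (i - j) - 1) by
      rw [Nat.mul_sub, ← pow_add, mul_one, Nat.add_sub_cancel' hji.le]] at hdiv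
    have hq' : q ∣ p ^ (i - j) - 1 :=
      (((Nat.coprime_primes hq hp.out).mpr hqp).pow_right j).dvd_of_dvd_mul_left hdiv
    refine hq'.trans ?_
    have : i - j = 1 ∨ i - j = 2 := by omega
    rcases this with h | h <;> rw [h]
    simpa using Nat.sub_one_dvd_pow_sub_one p 2
  have hWp : IsPGroup p W := ((hR.to_subgroup H).to_subgroup W)
  rcases Hall.exponent_p_rank_two hWexp (pRankLE_subgroup (pRankLE_subgroup hr H) W) with
    ⟨-, hcard⟩ | ⟨hnc, hZ, hq2⟩
  · exact count W hWp hcard b hbq hb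
  · refine count (W ⧸ center W) (hWp.to_quotient _) hq2 (Hall.charQuotient (center W) b)
      (by rw [← map_pow, hbq, map_one]) fun hbar => hb ?_
    have hmod : ∀ w : W, w⁻¹ * b w ∈ center W := fun w =>
      QuotientGroup.eq.mp (DFunLike.congr_fun hbar (QuotientGroup.mk w)).symm
    obtain ⟨x, y, hxy⟩ : ∃ x y : W, ⁅x, y⁆ ≠ 1 := by
      by_contra hno
      push Not at hno
      exact hnc fun x y => commutatorElement_eq_one_iff_mul_comm.mp (hno x y)
    have hqc : ∀ u v : W ⧸ center W, u * v = v * u := by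
      obtain ⟨i, hi⟩ := IsPGroup.iff_card.mp (hWp.to_quotient (center W))
      have h2 : i ≤ 2 := (Nat.pow_le_pow_iff_right hp.out.one_lt).mp (hi ▸ hq2)
      intro u v
      interval_cases i
      · haveI : Subsingleton (W ⧸ center W) := (Nat.card_eq_one_iff_unique.mp (by simpa using hi)).1
        exact Subsingleton.elim _ _
      · haveI := isCyclic_of_prime_card (p := p) (by simpa using hi : Nat.card (W ⧸ center W) = p)
        exact (IsCyclic.commGroup (α := W ⧸ center W)).mul_comm u v
      · exact (IsPGroup.isMulCommutative_of_card_eq_prime_sq hi).is_comm.comm u v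
    have hzy : ⁅x, y⁆ ∈ center W := by
      rw [← QuotientGroup.eq_one_iff, ← QuotientGroup.mk'_apply, map_commutatorElement,
        commutatorElement_eq_one_iff_mul_comm]
      exact hqc _ _
    have hfixc : b ⁅x, y⁆ = ⁅x, y⁆ := by
      obtain ⟨z1, hz1, e1⟩ : ∃ z ∈ center W, b x = x * z := ⟨_, hmod x, by group⟩
      obtain ⟨z2, hz2, e2⟩ : ∃ z ∈ center W, b y = y * z := ⟨_, hmod y, by group⟩
      rw [map_commutatorElement, e1, e2]
      have c1 : ∀ u, Commute z1 u := fun u => (mem_center_iff.mp hz1 u).symm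
      have c2 : ∀ u, Commute z2 u := fun u => (mem_center_iff.mp hz2 u).symm
      simp only [commutatorElement_def, mul_inv_rev]
      calc x * z1 * (y * z2) * (z1⁻¹ * x⁻¹) * (z2⁻¹ * y⁻¹)
          = x * (z1 * (y * z2)) * z1⁻¹ * x⁻¹ * z2⁻¹ * y⁻¹ := by group
        _ = x * y * (z2 * x⁻¹) * z2⁻¹ * y⁻¹ := by rw [(c1 (y * z2)).eq]; group
        _ = x * y * x⁻¹ * y⁻¹ := by rw [(c2 x⁻¹).eq]; group
    have hZfix : ∀ z ∈ center W, b z = z := by
      intro z hz
      have hz' : zpowers ⁅x, y⁆ = center W := by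
        refine eq_of_le_of_card_ge (zpowers_le.mpr hzy) ?_
        rw [Nat.card_zpowers, hZ, orderOf_eq_prime (hWexp _) hxy]
      obtain ⟨i, rfl⟩ := mem_zpowers_iff.mp (hz' ▸ hz)
      rw [map_zpow, hfixc]
    refine MulEquiv.ext fun w => ?_
    have hbo : (orderOf b).Coprime p :=
      ((Nat.coprime_primes hq hp.out).mpr hqp).coprime_dvd_left (orderOf_dvd_of_pow_eq_one hbq)
    exact eq_self_of_coprime hWp hbo (hZfix _ (hmod w))

end Cfsg.Agent.Lib.Thompson
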